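import Cfsg.Agent.Blocks.PRationalExtension.Transport
import Cfsg.Agent.IsoBlocks.Basic
import Cfsg.Agent.Blocks.Covering.Basic
import Cfsg.Agent.S0888

/-!
# A `p`-rational extension into the principal block

For `p` odd, an invariant `p`-rational character of degree prime to `p` of the principal block of a
normal subgroup `N` extends to a `p`-rational character of the principal block of `G` when
`|G : N C(Q)|` is a power of `p`, `Q` a Sylow subgroup of `N`.
-/

set_option autoImplicit false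

namespace CfsgLib.Blocks.PRationalExtension

open Cfsg CfsgLib CfsgLib.Blocks CfsgLib.Blocks.PrincipalExtension CfsgLib.Chars.Induced

/-! ### `p`-rational characters -/

section rational

variable {K : Type*} [Group K] [Finite K] {p : ℕ}

/-- A character with values among the `m`-th cyclotomic numbers is fixed by the powers fixing the
`m`-th roots of unity. -/
theorem apply_pow_eq (χ : IrrCharacter K) {m : ℕ} (hm : 0 < m)
    (hval : ∀ x, (χ : K → ℂ) x ∈
      IntermediateField.adjoin ℚ ({Complex.exp (2 * Real.pi * Complex.I / m)} : Set ℂ))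
    {k : ℕ} (hk : k.Coprime (Nat.card K)) (hkm : k ≡ 1 [MOD (Nat.card K).gcd m]) (x : K) :
    (χ : K → ℂ) (x ^ k) = (χ : K → ℂ) x := by
  obtain ⟨k', hk1, hk2⟩ := Nat.chineseRemainder' hkm
  have hco1 : k'.Coprime (Nat.card K) := by
    rw [Nat.Coprime, hk1.gcd_eq]; exact hk
  have hco2 : k'.Coprime m := by
    rw [Nat.Coprime, hk2.gcd_eq, Nat.gcd_one_left]
  have hpos : 0 < Nat.card K * m := Nat.mul_pos Nat.card_pos hm
  obtain ⟨σ, hσ⟩ := GaloisHom.exists_ringHom_pow hpos (Nat.Coprime.mul_right hco1 hco2)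
  have hζ := Complex.isPrimitiveRoot_exp m hm.ne'
  set ζ := Complex.exp (2 * Real.pi * Complex.I / m)
  have hfix : σ ζ = ζ := by
    rw [hσ ζ (by rw [mul_comm, pow_mul, hζ.pow_eq_one, one_pow])]
    conv_rhs => rw [← pow_one ζ, ← pow_mod_orderOf, ← hζ.eq_orderOf, ← hk2]
    rw [← pow_mod_orderOf ζ k', ← hζ.eq_orderOf]
  have h1 : σ ((χ : K → ℂ) x) = (χ : K → ℂ) x :=
    FieldOfValues57.fix_adjoin σ (fun y hy => by rw [Set.mem_singleton_iff.1 hy, hfix]) _ (hval x)
  rw [FieldOfValues57.map_value ((orderOf_dvd_natCard x).trans (dvd_mul_right _ _)) σ hσ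
    (CfsgLib.Chars.isCharacter_coe χ)] at h1
  rw [← h1]
  refine congrArg _ (pow_eq_pow_iff_modEq.2 ?_)
  exact (hk1.of_dvd (orderOf_dvd_natCard x)).symm

/-- For odd `p` the determinantal order of a character fixed by the powers fixing the elements of
order prime to `p` is prime to `p`. -/
theorem not_dvd_detOrder (hp : p.Prime) (hp2 : p ≠ 2) (χ : IrrCharacter K) {a n : ℕ}
    (hn : ¬ p ∣ n) (hcard : Nat.card K = p ^ a * n)
    (hfix : ∀ k : ℕ, k.Coprime (Nat.card K) → k ≡ 1 [MOD n] →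
      ∀ x, (χ : K → ℂ) (x ^ k) = (χ : K → ℂ) x) :
    ¬ p ∣ detOrder (χ : K → ℂ) := by
  classical
  haveI := Fintype.ofFinite K
  have hc := CfsgLib.Chars.isCharacter_coe χ
  rcases Nat.eq_zero_or_pos a with rfl | ha
  · intro h
    refine hn (h.trans ?_)
    have := detOrder_dvd_card hc
    rwa [hcard, pow_zero, one_mul] at this
  obtain ⟨k, hk1, hk2⟩ := Nat.chineseRemainder ((hp.coprime_iff_not_dvd.2 hn).pow_left a) 2 1
  have hkp : k ≡ 2 [MOD p] := hk1.of_dvd (dvd_pow_self p ha.ne')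
  have hk : k.Coprime (Nat.card K) := by
    rw [hcard]
    refine Nat.Coprime.mul_right (Nat.Coprime.pow_right _ ?_) ?_
    · rw [Nat.Coprime, hkp.gcd_eq]
      exact (Nat.coprime_primes Nat.prime_two hp).2 (Ne.symm hp2)
    · rw [Nat.Coprime, hk2.gcd_eq, Nat.gcd_one_left]
  have he : Orth.powIrr hk χ = χ := Subtype.ext (funext fun x => hfix k hk hk2 x)
  have hk0 : k ≠ 0 := by
    rintro rfl
    rw [Nat.coprime_zero_left, hcard] at hk
    exact hp.not_dvd_one (hk ▸ (dvd_pow_self p ha.ne').trans (dvd_mul_right _ _))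
  intro hdvd
  have hord : detOrder (χ : K → ℂ) ∣ k - 1 := by
    rw [detOrder_eq hc]
    refine orderOf_dvd_of_pow_eq_one (MonoidHom.ext fun g => Units.ext ?_)
    have h1 := detChar_powIrr hk χ g
    rw [he, ← detHom_apply hc, ← Units.val_pow_eq_pow_val, Units.val_inj] at h1
    rw [MonoidHom.pow_apply, MonoidHom.one_apply]
    have h2 : (detHom hc g) ^ (k - 1) * detHom hc g = 1 * detHom hc g := by
      rw [← pow_succ, Nat.sub_add_cancel (Nat.one_le_iff_ne_zero.2 hk0), one_mul, ← h1]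
    rw [mul_right_cancel h2]
  have h3 : (1 : ℕ) ≡ k [MOD p] :=
    (Nat.modEq_iff_dvd' (Nat.one_le_iff_ne_zero.2 hk0)).2 (hdvd.trans hord)
  have h4 := h3.trans hkp
  rw [Nat.modEq_iff_dvd' one_le_two] at h4
  exact hp.not_dvd_one h4

end rational

/-! ### The extension -/

variable {G : Type*} [Group G] [Fintype G] {p : ℕ} [Fact p.Prime] {N : Subgroup G} [N.Normal]
  (Q : Sylow p N)

theorem conj_mem_centralizer {s c : G} (hs : s ∈ Subgroup.normalizer (sylG Q : Set G))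
    (hc : c ∈ Subgroup.centralizer (sylG Q : Set G)) :
    s * c * s⁻¹ ∈ Subgroup.centralizer (sylG Q : Set G) := by
  rw [Subgroup.mem_centralizer_iff] at hc ⊢
  intro y hy
  have hy' : s⁻¹ * y * s ∈ (sylG Q : Set G) := by
    have := (Subgroup.mem_normalizer_iff.1 ((Subgroup.normalizer _).inv_mem hs) y).1 hy
    rwa [inv_inv] at this
  have h1 := hc _ hy'
  calc y * (s * c * s⁻¹) = s * ((s⁻¹ * y * s) * c) * s⁻¹ := by group
    _ = s * (c * (s⁻¹ * y * s)) * s⁻¹ := by rw [h1]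
    _ = s * c * s⁻¹ * y := by group

theorem exists_normalizer_mul (g : G) :
    ∃ s ∈ Subgroup.normalizer (sylG Q : Set G), ∃ n ∈ N, s * n = g := by
  have h : g ∈ Subgroup.normalizer (sylG Q : Set G) ⊔ N := by
    rw [show Subgroup.normalizer (sylG Q : Set G) ⊔ N = ⊤ from Sylow.normalizer_sup_eq_top Q]
    exact Subgroup.mem_top g
  exact Subgroup.mem_sup_of_normal_right.1 h

theorem normal_mZero : (N ⊔ Subgroup.centralizer (sylG Q : Set G)).Normal := by
  refine ⟨fun m hm g => ?_⟩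
  obtain ⟨n, hn, c, hc, rfl⟩ := Subgroup.mem_sup_of_normal_left.1 hm
  obtain ⟨s, hs, u, hu, rfl⟩ := exists_normalizer_mul Q g
  rw [show s * u * (n * c) * (s * u)⁻¹ = ((s * u) * n * (s * u)⁻¹) *
    ((s * u * s⁻¹) * (s * c * s⁻¹) * (s * u⁻¹ * s⁻¹)) by group]
  have hN : ∀ v ∈ N, ∀ w : G, w * v * w⁻¹ ∈ N ⊔ Subgroup.centralizer (sylG Q : Set G) :=
    fun v hv w => Subgroup.mem_sup_left (‹N.Normal›.conj_mem v hv w)
  exact mul_mem (hN n hn _) (mul_mem (mul_mem (hN u hu s)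
    (Subgroup.mem_sup_right (conj_mem_centralizer Q hs hc))) (hN u⁻¹ (N.inv_mem hu) s))

variable {M : Ideal AlgInt} {θ : IrrCharacter N}

/-- The extension to `G` by the Sylow criterion. -/
theorem exists_extension_top (hM : IsPModular p M)
    (hinv : ∀ (g : G) (n : N), (θ : N → ℂ) ⟨g * n * g⁻¹, ‹N.Normal›.conj_mem n n.2 g⟩ =
      (θ : N → ℂ) n)
    (hdeg : ¬ p ∣ charDegree (θ : N → ℂ)) (hdet : ¬ p ∣ detOrder (θ : N → ℂ))
    (hθ : θ ∈ principalBlock M N) {a : ℕ}
    (hidx : (N ⊔ Subgroup.centralizer (sylG Q : Set G)).index = p ^ a) :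
    ∃ ψ : IrrCharacter G, ∀ n : N, (ψ : G → ℂ) n = (θ : N → ℂ) n := by
  classical
  have hp : p.Prime := Fact.out
  haveI := normal_mZero Q
  obtain ⟨χ, hχ, hres⟩ := Cfsg.Agent.S0888.result N (θ : N → ℂ) θ.2 hinv fun q hq => by
    haveI : Fact q.Prime := ⟨hq⟩
    let S : Sylow q G := default
    set L := N ⊔ (S : Subgroup G) with hL
    have hNL : N ≤ L := le_sup_left
    haveI : Fintype L := Fintype.ofFinite _
    haveI : Fintype (N.subgroupOf L) := Fintype.ofFinite _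
    obtain ⟨b, hb⟩ := IsPGroup.iff_card.1 S.2
    have hrel : N.relIndex L ∣ q ^ b := by
      rw [← hb, hL, sup_comm, Subgroup.relIndex_sup_right]
      exact Subgroup.relIndex_dvd_card N (S : Subgroup G)
    obtain ⟨k, -, hk⟩ := (Nat.dvd_prime_pow hq).1 hrel
    have hcopq : Nat.Coprime L.index q :=
      Nat.Coprime.coprime_dvd_left (Subgroup.index_dvd_of_le (le_sup_right : (S : Subgroup G) ≤ L))
        (hq.coprime_iff_not_dvd.2 S.not_dvd_index).symm
    suffices h : ∃ η : IrrCharacter L, ∀ x : N.subgroupOf L,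
        (η : L → ℂ) x = (pullIrr hNL θ : N.subgroupOf L → ℂ) x by
      obtain ⟨η, hη⟩ := h
      refine ⟨L, hNL, η, hcopq, ⟨k, hk⟩, η.2, fun n => ?_⟩
      have := hη ⟨⟨(n : G), hNL n.2⟩, Subgroup.mem_subgroupOf.2 n.2⟩
      rwa [pullIrr_apply] at this
    have hinvL : ∀ g : L, conjFun (N.subgroupOf L) g (pullIrr hNL θ : N.subgroupOf L → ℂ) =
        pullIrr hNL θ := by
      intro g
      funext x
      rw [conjFun_apply, pullIrr_apply, pullIrr_apply]
      refine Eq.trans (congrArg (θ : N → ℂ) (Subtype.ext ?_))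
        (hinv ((g : L) : G)⁻¹ ⟨((x : L) : G), x.2⟩)
      simp
    by_cases hqp : q = p
    · subst hqp
      have hd : (pullIrr hNL θ : N.subgroupOf L → ℂ) 1 = (charDegree (θ : N → ℂ) : ℂ) := by
        rw [← charDegree_pullIrr hNL θ,
          CfsgLib.Chars.charDegree_cast (CfsgLib.Chars.isCharacter_coe _)]
      obtain ⟨η, hη, -⟩ := exists_canonical_extension (pullIrr hNL θ) hinvL hd (by
        show Nat.Coprime (N.relIndex L) _
        rw [hk]
        refine Nat.Coprime.pow_left _ (Nat.Coprime.mul_right ?_ (hq.coprime_iff_not_dvd.2 hdeg))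
        exact hq.coprime_iff_not_dvd.2 fun h => hdet (h.trans (detOrder_pullIrr_dvd hNL θ)))
      exact ⟨η, hη⟩
    · -- `S` lies in `N C(Q)`
      have hLM : L ≤ N ⊔ Subgroup.centralizer (sylG Q : Set G) := by
        refine sup_le le_sup_left fun s hs => ?_
        refine CfsgLib.BlocksCover.mem_of_index_prime_pow hp _ hidx s fun hps => hqp ?_
        obtain ⟨c, hc⟩ := S.2 ⟨s, hs⟩
        have h1 : orderOf s ∣ q ^ c :=
          orderOf_dvd_of_pow_eq_one (congrArg Subtype.val hc)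
        exact ((Nat.prime_dvd_prime_iff_eq hp hq).1 (hp.dvd_of_dvd_pow (hps.trans h1))).symm
      let P₀ := pullSylow hNL Q
      have hidx' : ¬ p ∣ (sylG P₀).index := by
        rw [sylG_pullSylow]
        show ¬ p ∣ (sylG Q).relIndex L
        rw [← Subgroup.relIndex_mul_relIndex _ N L (sylG_le Q) hNL, hk]
        exact fun h => (hp.dvd_mul.1 h).elim (not_dvd_index_sylG Q)
          fun h => hqp ((Nat.prime_dvd_prime_iff_eq hp hq).1 (hp.dvd_of_dvd_pow h)).symm
      let PL : Sylow p L := (isPGroup_sylG P₀).toSylow hidx'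
      obtain ⟨η, hη, hover⟩ := IsoBlocks.exists_over (N.subgroupOf L) hM
        (pullIrr_mem_principalBlock hNL hθ)
      obtain ⟨θ', -, hθ'⟩ := IsoBlocks.restrict_eq (N.subgroupOf L) hM PL
        (cov_pull hNL Q hLM) hη
      rw [show (fun n : N.subgroupOf L => (η : L → ℂ) n) = (θ' : N.subgroupOf L → ℂ) from
        funext hθ', CfsgLib.Chars.classInner_irr] at hover
      have he : θ' = pullIrr hNL θ := by
        by_contra hne
        exact hover (if_neg hne)
      exact ⟨η, fun x => by rw [hθ', he]⟩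
  exact ⟨⟨χ, hχ⟩, hres⟩

/-- **The extension.** -/
theorem exists_extension (hp2 : p ≠ 2) (hM : IsPModular p M)
    (hinv : ∀ (g : G) (n : N), (θ : N → ℂ) ⟨g * n * g⁻¹, ‹N.Normal›.conj_mem n n.2 g⟩ =
      (θ : N → ℂ) n)
    (hdeg : ¬ p ∣ charDegree (θ : N → ℂ))
    {m : ℕ} (hm : ¬ p ∣ m) (hval : ∀ n : N, (θ : N → ℂ) n ∈
      IntermediateField.adjoin ℚ ({Complex.exp (2 * Real.pi * Complex.I / m)} : Set ℂ))
    (hθ : θ ∈ principalBlock M N) {a : ℕ}
    (hidx : (N ⊔ Subgroup.centralizer (sylG Q : Set G)).index = p ^ a) :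
    ∃ χ : IrrCharacter G, χ ∈ principalBlock M G ∧
      (∃ n : ℕ, ¬ p ∣ n ∧ ∀ g : G, (χ : G → ℂ) g ∈
        IntermediateField.adjoin ℚ ({Complex.exp (2 * Real.pi * Complex.I / n)} : Set ℂ)) ∧
      ∀ x : N, (χ : G → ℂ) x = (θ : N → ℂ) x := by
  classical
  have hp : p.Prime := Fact.out
  haveI := hM.2.1
  haveI : Fintype N := Fintype.ofFinite _
  obtain ⟨e, n, hn, hcard⟩ := Nat.exists_eq_pow_mul_and_not_dvd
    (Nat.card_pos (α := G)).ne' p hp.ne_one
  have hm0 : 0 < m := Nat.pos_of_ne_zero fun h => hm (h ▸ dvd_zero p)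
  -- `θ` is fixed by the powers fixing the p'-roots of unity
  have hθfix : ∀ k : ℕ, k.Coprime (Nat.card N) → ∀ l, ¬ p ∣ l → (Nat.card N).gcd m ∣ l →
      k ≡ 1 [MOD l] → ∀ x : N, (θ : N → ℂ) (x ^ k) = (θ : N → ℂ) x :=
    fun k hk l _ hl hkl => apply_pow_eq θ hm0 hval hk (hkl.of_dvd hl)
  have hgcd : ∀ {s l : ℕ} (t : ℕ), s = p ^ t * l → s.gcd m ∣ l := fun {s l} t hs =>
    Nat.Coprime.dvd_of_dvd_mul_left ((Nat.Coprime.coprime_dvd_left (Nat.gcd_dvd_right s m)
      (hp.coprime_iff_not_dvd.2 hm).symm).pow_right t) (hs ▸ Nat.gcd_dvd_left s m)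
  have hdet : ¬ p ∣ detOrder (θ : N → ℂ) := by
    obtain ⟨t, l, hl, hNc⟩ := Nat.exists_eq_pow_mul_and_not_dvd
      (Nat.card_pos (α := N)).ne' p hp.ne_one
    exact not_dvd_detOrder hp hp2 θ hl hNc fun k hk hk1 => hθfix k hk l hl (hgcd t hNc) hk1
  obtain ⟨ψ₀, hψ₀⟩ := exists_extension_top Q hM hinv hdeg hdet hθ hidx
  -- the subgroup `N C(Q)`
  set M0 := N ⊔ Subgroup.centralizer (sylG Q : Set G) with hM0
  haveI := normal_mZero Q
  haveI : Fintype M0 := Fintype.ofFinite _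
  haveI : Fintype (N.subgroupOf M0) := Fintype.ofFinite _
  have hNM : N ≤ M0 := le_sup_left
  have hcov := cov_pull hNM Q le_rfl
  set θ₀ := pullIrr hNM θ with hθ₀
  set P₀ := pullSylow hNM Q
  have hθ₀B := pullIrr_mem_principalBlock (M := M) hNM hθ
  have hdeg₀ : ¬ p ∣ charDegree (θ₀ : N.subgroupOf M0 → ℂ) := by rwa [hθ₀, charDegree_pullIrr]
  have hdet₀ : ¬ p ∣ detOrder (θ₀ : N.subgroupOf M0 → ℂ) :=
    fun h => hdet (h.trans (detOrder_pullIrr_dvd hNM θ))
  obtain ⟨χ₁, hχ₁⟩ : ∃ χ₁ : IrrCharacter M0, IsNormalised M P₀ θ₀ χ₁ := by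
    have hir : IsIrrCharacter M0 (fun y : M0 => (ψ₀ : G → ℂ) y) :=
      Chars.Quasiprimitive.isIrrCharacter_of_comp (Subgroup.inclusion hNM)
        (CfsgLib.Chars.isCharacter_restrict (CfsgLib.Chars.isCharacter_coe ψ₀) M0)
        (show IsIrrCharacter N (fun x : N => (ψ₀ : G → ℂ) x) from isIrr_restrict hψ₀)
    exact exists_isNormalised hM P₀ hcov hθ₀B hdeg₀ hdet₀ (ψ := ⟨_, hir⟩) fun x => by
      rw [hθ₀, pullIrr_apply]
      exact hψ₀ ⟨((x : M0) : G), x.2⟩
  -- invariance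
  have hχ₁inv : ∀ g : G, conjFun M0 g (χ₁ : M0 → ℂ) = χ₁ := by
    intro g
    refine congrArg Subtype.val ((IsNormalised.eq hM P₀ hcov hθ₀B hdeg₀ hχ₁
      (χ' := conjIrr g χ₁) ⟨fun x => ?_, fun c hc => ?_, ?_⟩))
    · show conjFun M0 g (χ₁ : M0 → ℂ) x = _
      rw [conjFun_apply]
      have hmem : g⁻¹ * ((x : M0) : G) * g ∈ N := by
        simpa using ‹N.Normal›.conj_mem _ x.2 g⁻¹
      have h1 := hχ₁.1 ⟨⟨g⁻¹ * ((x : M0) : G) * g, hNM hmem⟩, Subgroup.mem_subgroupOf.2 hmem⟩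
      rw [pullIrr_apply] at h1 ⊢
      refine Eq.trans h1 ?_
      refine Eq.trans (congrArg (θ : N → ℂ) (Subtype.ext ?_))
        (hinv g⁻¹ ⟨((x : M0) : G), x.2⟩)
      simp
    · obtain ⟨s, hs, u, hu, rfl⟩ := exists_normalizer_mul Q g
      have hc' := (mem_centralizer_pull hNM Q).1 hc
      have hd : s⁻¹ * (c : G) * s ∈ Subgroup.centralizer (sylG Q : Set G) := by
        simpa using conj_mem_centralizer Q ((Subgroup.normalizer _).inv_mem hs) hc'
      let d : M0 := ⟨_, Subgroup.mem_sup_right hd⟩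
      have hv : (conjIrr (s * u) χ₁ : M0 → ℂ) c = (χ₁ : M0 → ℂ) d := by
        show conjFun M0 (s * u) (χ₁ : M0 → ℂ) c = _
        rw [conjFun_apply, ← CfsgLib.Chars.isClassFunction_coe χ₁ d (⟨u, hNM hu⟩ : M0)⁻¹]
        refine congrArg _ (Subtype.ext ?_)
        simp [d, mul_assoc]
      have hv1 : (conjIrr (s * u) χ₁ : M0 → ℂ) 1 = (χ₁ : M0 → ℂ) 1 := by
        show conjFun M0 (s * u) (χ₁ : M0 → ℂ) 1 = _
        rw [conjFun_apply]
        refine congrArg _ (Subtype.ext ?_)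
        simp
      have := hχ₁.2.1 d ((mem_centralizer_pull hNM Q).2 hd)
      rw [ratio] at this ⊢
      rwa [hv, hv1]
    · exact fun h => hχ₁.2.2 (h.trans
        (detOrder_comp_dvd ((MulAut.conjNormal g : MulAut M0)⁻¹).toMonoidHom χ₁
          (conjIrr g χ₁).2 fun x => rfl))
  -- Galois stability
  have hχ₁fix : ∀ k : ℕ, k.Coprime (Nat.card G) → k ≡ 1 [MOD n] →
      ∀ y : M0, (χ₁ : M0 → ℂ) (y ^ k) = (χ₁ : M0 → ℂ) y := by
    intro k hk hkn y
    have hk' : k.Coprime (Nat.card M0) :=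
      hk.coprime_dvd_right (Subgroup.card_subgroup_dvd_card M0)
    refine congrFun (congrArg Subtype.val (IsNormalised.eq hM P₀ hcov hθ₀B hdeg₀ hχ₁
      (χ' := Orth.powIrr hk' χ₁) ⟨fun x => ?_, fun c hc => ?_, ?_⟩)) y
    · rw [Orth.powIrr_apply, ← SubgroupClass.coe_pow, hχ₁.1, hθ₀, pullIrr_apply, pullIrr_apply]
      refine Eq.trans (congrArg (θ : N → ℂ) (Subtype.ext ?_))
        (apply_pow_eq θ hm0 hval (hk.coprime_dvd_right (Subgroup.card_subgroup_dvd_card N))
          (hkn.of_dvd ((Nat.gcd_dvd_gcd_of_dvd_left m (Subgroup.card_subgroup_dvd_card N)).trans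
            (hgcd e hcard))) ⟨((x : M0) : G), x.2⟩)
      simp
    · have := hχ₁.2.1 (c ^ k) (pow_mem hc k)
      rw [ratio] at this ⊢
      rwa [Orth.powIrr_apply, Orth.powIrr_apply, one_pow]
    · exact fun h => hχ₁.2.2 (h.trans (detOrder_powIrr_dvd hk' χ₁))
  -- the canonical extension to `G`
  have hd1 : (χ₁ : M0 → ℂ) 1 = (charDegree (θ₀ : N.subgroupOf M0 → ℂ) : ℂ) :=
    charDegree_eq_one_value hχ₁.1
  obtain ⟨χ, hχ, hχdet, huniq⟩ := exists_canonical_extension χ₁ hχ₁inv hd1 (by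
    rw [hidx]
    exact Nat.Coprime.pow_left _ (hp.coprime_iff_not_dvd.2
      fun h => (hp.dvd_mul.1 h).elim hχ₁.2.2 hdeg₀))
  have hfix : ∀ k : ℕ, k.Coprime (Nat.card G) → k ≡ 1 [MOD n] →
      ∀ g : G, (χ : G → ℂ) (g ^ k) = (χ : G → ℂ) g := by
    intro k hk hkn g
    refine congrFun (congrArg Subtype.val (huniq (Orth.powIrr hk χ) (fun y => ?_) ?_)) g
    · rw [Orth.powIrr_apply, ← SubgroupClass.coe_pow, hχ, hχ₁fix k hk hkn y]
    · rw [hidx]
      refine Nat.Coprime.pow_left _ (hp.coprime_iff_not_dvd.2 fun h => hχ₁.2.2 ?_)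
      rw [← hχdet]
      exact h.trans (detOrder_powIrr_dvd hk χ)
  refine ⟨χ, ?_, ⟨n, hn, fun g => ?_⟩, fun x => ?_⟩
  · -- the block
    have hB₁ := IsNormalised.mem_principalBlock hM P₀ hθ₀B hχ₁
    rw [mem_principalBlock_iff] at hB₁
    have h := CfsgLib.BlocksCover.sameBlock_of_congr_on_regular hM M0
      (fun g hg => CfsgLib.BlocksCover.mem_of_index_prime_pow hp M0 hidx g hg)
      (CfsgLib.Chars.oneChar G) χ (fun y => ?_)
    · show SameBlock M (fun _ => (1 : ℂ)) (χ : G → ℂ)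
      rwa [← CfsgLib.Chars.oneChar_coe]
    · set C := Subgroup.centralizer ({(y : G)} : Set G) with hC
      have hC0 : (Subgroup.centralizer ({y} : Set M0)) = C.subgroupOf M0 := by
        ext z
        simp [hC, Subgroup.mem_subgroupOf, Subgroup.mem_centralizer_singleton_iff, Subtype.ext_iff]
      obtain ⟨r, hr⟩ : (Subgroup.centralizer ({y} : Set M0)).index ∣ C.index := by
        rw [hC0]
        show C.relIndex M0 ∣ C.index
        obtain ⟨r', hr'⟩ := Subgroup.relIndex_dvd_index_of_normal M0 C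
        have e1 := Subgroup.relIndex_mul_index (inf_le_right : C ⊓ M0 ≤ M0)
        have e2 := Subgroup.relIndex_mul_index (inf_le_left : C ⊓ M0 ≤ C)
        rw [Subgroup.inf_relIndex_right] at e1
        rw [Subgroup.inf_relIndex_left] at e2
        refine ⟨r', mul_left_cancel₀ (a := M0.relIndex C)
          (fun h0 => M0.index_ne_zero_of_finite (by rw [hr', h0, zero_mul])) ?_⟩
        rw [e2, ← e1, hr', mul_left_comm]
      rw [CfsgLib.Chars.oneChar_coe, centralChar_const_one, centralChar, ← hC, hr, Nat.cast_mul,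
        hχ y, show (χ : G → ℂ) 1 = (χ₁ : M0 → ℂ) 1 from by rw [← hχ 1]; rfl]
      have h2 := hB₁ y
      rw [centralChar] at h2
      show MemLocalIdeal M _
      have h3 := memLocalIdeal_mul_left (memLocalRing_coe (M := M) (r : AlgInt)) h2
      convert h3 using 1
      push_cast
      ring
  · -- the field of values
    haveI : NeZero (Nat.card G) := ⟨Nat.card_pos.ne'⟩
    have hn0 : 0 < n := Nat.pos_of_ne_zero fun h => hn (h ▸ dvd_zero p)
    have hζ := Complex.isPrimitiveRoot_exp (Nat.card G) Nat.card_pos.ne'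
    have hζn := Complex.isPrimitiveRoot_exp n hn0.ne'
    set ζn := Complex.exp (2 * Real.pi * Complex.I / (n : ℕ))
    set ζ := Complex.exp (2 * Real.pi * Complex.I / (Nat.card G : ℕ))
    refine FieldOfValues57.le_of_fix Nat.card_pos hζ
      (IntermediateField.adjoin ℚ (Set.range (χ : G → ℂ))) (IntermediateField.adjoin ℚ {ζn})
      ?_ ?_ ?_ (IntermediateField.subset_adjoin ℚ _ ⟨g, rfl⟩)
    · rw [IntermediateField.adjoin_le_iff]
      rintro _ ⟨x, rfl⟩
      exact FieldOfValues57.values_le Nat.card_pos hζ (orderOf_dvd_natCard x)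
        (IntermediateField.subset_adjoin ℚ _ ⟨χ, rfl⟩)
    · rw [IntermediateField.adjoin_simple_le_iff]
      obtain ⟨i, -, hi⟩ := hζ.eq_pow_of_pow_eq_one (ξ := ζn) (by
        rw [hcard, mul_comm, pow_mul, hζn.pow_eq_one, one_pow])
      rw [← hi]
      exact pow_mem (IntermediateField.mem_adjoin_simple_self ℚ ζ) i
    · intro k σ hk hσ hfixn
      refine FieldOfValues57.fix_adjoin σ ?_
      rintro _ ⟨x, rfl⟩
      rw [FieldOfValues57.map_value (orderOf_dvd_natCard x) σ hσ (CfsgLib.Chars.isCharacter_coe χ)]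
      refine hfix k hk ?_ x
      have h1 := hfixn ζn (IntermediateField.mem_adjoin_simple_self ℚ ζn)
      rw [hσ ζn (by rw [hcard, mul_comm, pow_mul, hζn.pow_eq_one, one_pow])] at h1
      conv_rhs at h1 => rw [← pow_one ζn]
      rw [← pow_mod_orderOf ζn k, ← pow_mod_orderOf ζn 1, ← hζn.eq_orderOf] at h1
      exact hζn.pow_inj (Nat.mod_lt _ hn0) (Nat.mod_lt _ hn0) h1
  · have h1 := hχ ⟨(x : G), hNM x.2⟩
    rw [h1]
    have h2 := hχ₁.1 ⟨⟨(x : G), hNM x.2⟩, Subgroup.mem_subgroupOf.2 x.2⟩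
    rw [h2, hθ₀, pullIrr_apply]

end CfsgLib.Blocks.PRationalExtension
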