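import Cfsg.Agent.Blocks.Covering.PrincipalExtensionTwist
import Cfsg.Agent.Chars.Induced.Extension
import Cfsg.Agent.Chars.Induced.Gallagher

/-!
# Normalised extensions of characters of the principal block

With `H = N C(P)` for a Sylow subgroup `P` of `N`, a character of degree prime to `p` of the
principal block of `N` whose determinantal order is prime to `p` and which extends to `H` has a
unique extension with trivial ratios and determinantal order prime to `p`.
-/

set_option autoImplicit false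

namespace CfsgLib.Blocks.PRationalExtension

open Cfsg CfsgLib CfsgLib.Blocks CfsgLib.Blocks.PrincipalExtension CfsgLib.Chars.Induced

variable {p : ℕ} {M : Ideal AlgInt}

section roots

/-- A root of unity congruent to one has order a power of `p`. -/
theorem pow_eq_one_of_congr_one (hM : IsPModular p M) {z : ℂ} {a m : ℕ} (hm : ¬ p ∣ m)
    (hz : z ^ (p ^ a * m) = 1) (h : Congr M 1 z) : z ^ p ^ a = 1 := by
  haveI := hM.2.1
  have hpos : 0 < p ^ a * m := Nat.mul_pos (pow_pos hM.1.pos a)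
    (Nat.pos_of_ne_zero fun h0 => hm (h0 ▸ dvd_zero p))
  have hint : IsIntegral ℤ z := IsIntegral.of_pow hpos (by rw [hz]; exact isIntegral_one)
  let ζ : AlgInt := ⟨z, hint⟩
  have h1 : ζ - 1 ∈ M := memLocalIdeal_coe_iff.1 (by
    have := Congr.symm h
    simpa [ζ, Congr] using this)
  have h2 : ζ ^ p ^ a - 1 ∈ M := by
    rw [← geom_sum_mul]
    exact M.mul_mem_left _ h1
  exact congrArg Subtype.val (algInt_eq_one_of_sub_one_mem hM (ζ := ζ ^ p ^ a) hm
    (Subtype.ext (by rw [← pow_mul]; exact hz)) h2)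

/-- A root of unity of `p`-power order reduces to one. -/
theorem redC_eq_one_of_pow [M.IsMaximal] (hM : IsPModular p M) {z : ℂ} {a : ℕ}
    (hz : z ^ p ^ a = 1) : redC M z = 1 := by
  haveI : Fact p.Prime := ⟨hM.1⟩
  haveI := charP_kres hM
  have hint : IsIntegral ℤ z := IsIntegral.of_pow (pow_pos hM.1.pos a) (by rw [hz]; exact isIntegral_one)
  have hloc : MemLocalRing M z := memLocalRing_of_isIntegral hint
  rw [redC_of_mem hloc]
  have h : (res M ⟨z, hloc⟩) ^ p ^ a = 1 := by
    rw [← map_pow, ← map_one (res M)]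
    exact congrArg (res M) (Subtype.ext hz)
  haveI : ExpChar (kres M) p := ExpChar.prime hM.1
  exact iterateFrobenius_inj (kres M) p a (by rw [iterateFrobenius_def, h, map_one])

end roots

variable {H : Type*} [Group H] [Fintype H] [hpf : Fact p.Prime] [hMi : M.IsMaximal] {N : Subgroup H}
  [N.Normal]

/-- The normalised extensions of `θ`. -/
def IsNormalised (M : Ideal AlgInt) [M.IsMaximal] (P : Sylow p N) (θ : IrrCharacter N)
    (χ : IrrCharacter H) : Prop :=
  (∀ x : N, (χ : H → ℂ) x = (θ : N → ℂ) x) ∧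
    (∀ c ∈ Subgroup.centralizer (sylG P : Set H), ratio M χ c = 1) ∧
      ¬ p ∣ detOrder (χ : H → ℂ)

variable (hM : IsPModular p M) (P : Sylow p N)
  (hcov : N ⊔ Subgroup.centralizer (sylG P : Set H) = ⊤) {θ : IrrCharacter N}
  (hθ : θ ∈ principalBlock M N) (hdeg : ¬ p ∣ charDegree (θ : N → ℂ))

include hM hθ in
/-- A normalised extension lies in the principal block. -/
theorem IsNormalised.mem_principalBlock {χ : IrrCharacter H} (h : IsNormalised M P θ χ) :
    χ ∈ principalBlock M H := by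
  classical
  haveI : Fintype (⊤ : Subgroup H) := Fintype.ofFinite _
  obtain ⟨ξ, hξ, hξv⟩ := mem_principalBlock_restrict P hM h.1 hθ h.2.1 ⊤ le_top
  rw [mem_principalBlock_iff] at hξ ⊢
  intro g
  have hidx : (Subgroup.centralizer ({(⟨g, Subgroup.mem_top g⟩ : (⊤ : Subgroup H))} :
      Set (⊤ : Subgroup H))).index = (Subgroup.centralizer ({g} : Set H)).index := by
    rw [← CfsgLib.Blocks.card_conjugates, ← CfsgLib.Blocks.card_conjugates]
    refine Nat.card_congr (Equiv.subtypeEquiv Subgroup.topEquiv.toEquiv fun x => ?_)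
    exact ⟨fun h => (Subgroup.topEquiv (G := H)).toMonoidHom.map_isConj h, fun h => by
      obtain ⟨w, hw⟩ := isConj_iff.1 h
      exact isConj_iff.2 ⟨⟨w, Subgroup.mem_top w⟩, Subtype.ext hw⟩⟩
  have h' := hξ ⟨g, Subgroup.mem_top g⟩
  simp only [Cfsg.centralChar, hξv, Subgroup.coe_one] at h' ⊢
  rw [hidx] at h'
  exact h'

omit hpf hMi in
theorem charDegree_eq_one_value {χ : IrrCharacter H}
    (h : ∀ x : N, (χ : H → ℂ) x = (θ : N → ℂ) x) :
    (χ : H → ℂ) 1 = (charDegree (θ : N → ℂ) : ℂ) := by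
  rw [CfsgLib.Chars.charDegree_cast (CfsgLib.Chars.isCharacter_coe θ), ← h 1, OneMemClass.coe_one]

omit hpf hMi in
theorem exists_lin_of_extensions {χ χ' : IrrCharacter H}
    (h : ∀ x : N, (χ : H → ℂ) x = (θ : N → ℂ) x) (h' : ∀ x : N, (χ' : H → ℂ) x = (θ : N → ℂ) x) :
    ∃ l : H →* ℂˣ, (∀ x : N, l (x : H) = 1) ∧
      (χ' : H → ℂ) = fun g => (l g : ℂ) * (χ : H → ℂ) g := by
  classical
  have : Fintype N := Fintype.ofFinite _
  obtain ⟨β, hβ⟩ := gallagher_exists χ θ h χ' (by
    rw [show (fun n : N => (χ' : H → ℂ) n) = (θ : N → ℂ) from funext h', mult_irr, if_pos rfl]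
    exact one_ne_zero)
  have hβ1 : (β : H ⧸ N → ℂ) 1 = 1 := by
    have e1 := congrFun hβ 1
    rw [QuotientGroup.mk_one, charDegree_eq_one_value h', charDegree_eq_one_value h] at e1
    refine mul_left_cancel₀ ?_ (e1.symm.trans (mul_one _).symm)
    rw [CfsgLib.Chars.charDegree_cast (CfsgLib.Chars.isCharacter_coe θ)]
    exact CfsgLib.Chars.map_one_ne_zero θ
  obtain ⟨l, rfl⟩ := CfsgLib.Chars.exists_linChar_eq β hβ1
  refine ⟨l.comp (QuotientGroup.mk' N), fun x => ?_, ?_⟩
  · rw [MonoidHom.comp_apply, QuotientGroup.mk'_apply, (QuotientGroup.eq_one_iff _).2 x.2, map_one]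
  · rw [hβ]
    funext g
    simp [mul_comm]

include hM hθ in
theorem ratio_linear_mul {χ χ' : IrrCharacter H} (h : ∀ x : N, (χ : H → ℂ) x = (θ : N → ℂ) x)
    (l : H →* ℂˣ) (he : (χ' : H → ℂ) = fun g => (l g : ℂ) * (χ : H → ℂ) g) {c : H}
    (hc : c ∈ Subgroup.centralizer (sylG P : Set H)) :
    ratio M χ' c = redC M (l c : ℂ) * ratio M χ c := by
  have hl : MemLocalRing M (l c : ℂ) := memLocalRing_of_isIntegral
    (CfsgLib.Chars.isIntegral_apply (CfsgLib.Chars.isCharacter_coe (CfsgLib.Chars.linChar l)) c)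
  have hr := memLocalRing_ratio h hθ hM (sylG P) (sylG_le P) (isPGroup_sylG P)
    (not_dvd_index_sylG P) hc
  rw [ratio, ratio, congrFun he c, congrFun he 1, map_one, Units.val_one, one_mul, mul_div_assoc,
    redC_of_mem hl, redC_of_mem hr, redC_of_mem ((localRing M).mul_mem hl hr), ← map_mul]
  rfl

include hM hcov hθ hdeg in
/-- Normalised extensions are unique. -/
theorem IsNormalised.eq {χ χ' : IrrCharacter H} (h : IsNormalised M P θ χ)
    (h' : IsNormalised M P θ χ') : χ' = χ := by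
  classical
  have hp : p.Prime := Fact.out
  obtain ⟨l, hlN, he⟩ := exists_lin_of_extensions h.1 h'.1
  obtain ⟨a, m, hm, hcard⟩ := Nat.exists_eq_pow_mul_and_not_dvd
    (Nat.card_pos (α := H)).ne' p hp.ne_one
  -- the values are roots of unity of `p`-power order
  have hla : ∀ g : H, (l g : ℂ) ^ p ^ a = 1 := by
    intro g
    obtain ⟨n, hn, c, hc, rfl⟩ := Subgroup.mem_sup_of_normal_left.1
      (hcov ▸ Subgroup.mem_top g : g ∈ N ⊔ Subgroup.centralizer (sylG P : Set H))
    rw [map_mul, hlN ⟨n, hn⟩, one_mul]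
    have hloc : MemLocalRing M (l c : ℂ) := memLocalRing_of_isIntegral
      (CfsgLib.Chars.isIntegral_apply (CfsgLib.Chars.isCharacter_coe (CfsgLib.Chars.linChar l)) c)
    have hr := ratio_linear_mul hM P hθ h.1 l he hc
    rw [h'.2.1 c hc, h.2.1 c hc, mul_one, ← redC_one (M := M),
      redC_eq_redC_iff (localRing M).one_mem hloc] at hr
    refine pow_eq_one_of_congr_one hM hm ?_ hr
    rw [← hcard, ← Units.val_pow_eq_pow_val, ← map_pow, pow_card_eq_one', map_one, Units.val_one]
  -- the determinants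
  have hl1 : l = 1 := by
    refine MonoidHom.ext fun g => Units.ext ?_
    have hd := detChar_linear_mul χ.2 l (charDegree_eq_one_value h.1) g
    rw [← he] at hd
    set o := detOrder (χ : H → ℂ)
    set o' := detOrder (χ' : H → ℂ)
    have ho : detChar (χ : H → ℂ) g ^ o = 1 := congrFun (pow_orderOf_eq_one (detChar (χ : H → ℂ))) g
    have ho' : detChar (χ' : H → ℂ) g ^ o' = 1 :=
      congrFun (pow_orderOf_eq_one (detChar (χ' : H → ℂ))) g
    rw [hd, mul_pow] at ho'
    have h1 : (l g : ℂ) ^ (charDegree (θ : N → ℂ) * o' * o) = 1 := by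
      have h2 := congrArg (· ^ o) ho'
      simp only [mul_pow, ← pow_mul, one_pow] at h2
      rwa [mul_comm o' o, pow_mul (detChar (χ : H → ℂ) g), ho, one_pow, mul_one] at h2
    have hco : Nat.Coprime (p ^ a) (charDegree (θ : N → ℂ) * o' * o) :=
      Nat.Coprime.pow_left _ ((hp.coprime_iff_not_dvd).2 fun hd' => by
        rcases hp.dvd_mul.1 hd' with hd' | hd'
        · rcases hp.dvd_mul.1 hd' with hd' | hd'
          · exact hdeg hd'
          · exact h'.2.2 hd'
        · exact h.2.2 hd')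
    have h3 := pow_gcd_eq_one.2 ⟨hla g, h1⟩
    rwa [hco, pow_one] at h3
  refine Subtype.ext ?_
  rw [he, hl1]
  simp

include hM hcov hθ hdeg in
/-- A normalised extension exists as soon as some extension does. -/
theorem exists_isNormalised (hdet : ¬ p ∣ detOrder (θ : N → ℂ)) {ψ : IrrCharacter H}
    (hψ : ∀ x : N, (ψ : H → ℂ) x = (θ : N → ℂ) x) :
    ∃ χ : IrrCharacter H, IsNormalised M P θ χ := by
  classical
  have hp : p.Prime := Fact.out
  obtain ⟨χ₁, hres, hrat⟩ := exists_twist P hcov hψ hθ hM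
  have hc₁ := CfsgLib.Chars.isCharacter_coe χ₁
  set d := charDegree (θ : N → ℂ)
  set δ := detHom hc₁ with hδ
  have hδpos : orderOf δ ≠ 0 := by
    rw [hδ, ← detOrder_eq hc₁]; exact (detOrder_pos hc₁).ne'
  obtain ⟨b, r, hr, hord⟩ := Nat.exists_eq_pow_mul_and_not_dvd hδpos p hp.ne_one
  set x : H →* ℂˣ := (δ ^ r)⁻¹ with hx
  have hxpow : x ^ p ^ b = 1 := MonoidHom.ext fun g => by
    rw [hx, MonoidHom.pow_apply, MonoidHom.inv_apply, MonoidHom.pow_apply, inv_pow, ← pow_mul,
      mul_comm, ← hord, ← MonoidHom.pow_apply, pow_orderOf_eq_one, MonoidHom.one_apply, inv_one]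
  obtain ⟨j, hj⟩ := exists_pow_eq_self_of_coprime (x := x) (n := d * r) (by
    refine Nat.Coprime.coprime_dvd_right (orderOf_dvd_of_pow_eq_one hxpow) ?_
    exact Nat.Coprime.pow_right _ ((hp.coprime_iff_not_dvd).2
      fun h => (hp.dvd_mul.1 h).elim hdeg hr).symm)
  set μ : H →* ℂˣ := x ^ j with hμ
  let χ : IrrCharacter H := ⟨_, CfsgLib.Chars.isIrrCharacter_linear_mul χ₁.2 μ⟩
  have hδN : ∀ y : N, δ (y : H) ^ r = 1 := by
    intro y
    have h1 : δ (y : H) ^ detOrder (θ : N → ℂ) = 1 := by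
      refine Units.ext ?_
      rw [Units.val_pow_eq_pow_val, detHom_apply, ← detChar_restrict χ₁.2 θ.2 hres, Units.val_one]
      exact congrFun (pow_orderOf_eq_one (detChar (θ : N → ℂ))) y
    have h2 : δ (y : H) ^ (p ^ b * r) = 1 := by
      rw [← hord, ← MonoidHom.pow_apply, pow_orderOf_eq_one, MonoidHom.one_apply]
    rw [← orderOf_dvd_iff_pow_eq_one] at h1 h2 ⊢
    exact (Nat.Coprime.coprime_dvd_left h1
      ((hp.coprime_iff_not_dvd.2 hdet).symm.pow_right b)).dvd_of_dvd_mul_left h2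
  refine ⟨χ, fun y => ?_, fun c hc => ?_, ?_⟩
  · show ((μ (y : H) : ℂˣ) : ℂ) * (χ₁ : H → ℂ) y = _
    rw [hμ, hx, MonoidHom.pow_apply, MonoidHom.inv_apply, MonoidHom.pow_apply, hδN, inv_one,
      one_pow, Units.val_one, one_mul, hres]
  · rw [ratio_linear_mul hM P hθ hres μ rfl hc, hrat c hc, mul_one]
    refine redC_eq_one_of_pow hM (a := b) ?_
    rw [← Units.val_pow_eq_pow_val, ← MonoidHom.pow_apply, hμ, ← pow_mul, mul_comm, pow_mul, hxpow,
      one_pow, MonoidHom.one_apply, Units.val_one]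
  · have hdvd : detOrder (χ : H → ℂ) ∣ r := by
      refine orderOf_dvd_of_pow_eq_one (funext fun g => ?_)
      show detChar (fun z => ((μ z : ℂˣ) : ℂ) * (χ₁ : H → ℂ) z) g ^ r = 1
      rw [detChar_linear_mul χ₁.2 μ (charDegree_eq_one_value hres) g, ← detHom_apply hc₁, ← hδ,
        ← Units.val_pow_eq_pow_val, ← Units.val_mul, ← Units.val_pow_eq_pow_val, Units.val_eq_one]
      have key : (μ g ^ d * δ g) ^ r = 1 := by
        have e1 := DFunLike.congr_fun hj g
        simp only [MonoidHom.pow_apply] at e1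
        rw [mul_pow, ← pow_mul, hμ, MonoidHom.pow_apply, ← pow_mul, mul_comm j, pow_mul, e1, hx,
          MonoidHom.inv_apply, MonoidHom.pow_apply, inv_mul_cancel]
      exact key
    exact fun h => hr (h.trans hdvd)

end CfsgLib.Blocks.PRationalExtension
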