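import Cfsg.Agent.Blocks.PRationalExtension.Normalised
import Cfsg.Agent.Blocks.Defect.Translate
import Cfsg.Agent.Blocks.Orth.PrincipalGalois
import Cfsg.Agent.Glauberman.Cyclic
import Cfsg.Agent.Chars.FieldOfValues57.Basic

/-!
# Transport to intermediate subgroups, and determinants under Galois conjugation
-/

set_option autoImplicit false

namespace CfsgLib.Blocks.PRationalExtension

open Cfsg CfsgLib CfsgLib.Blocks CfsgLib.Blocks.PrincipalExtension CfsgLib.Chars.Induced

/-! ### Determinants -/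

theorem detChar_pow_detOrder {K : Type*} [Group K] (χ : K → ℂ) (g : K) :
    detChar χ g ^ detOrder χ = 1 :=
  congrFun (pow_orderOf_eq_one (detChar χ)) g

/-- The determinantal order can only drop under composition. -/
theorem detOrder_comp_dvd {K K' : Type*} [Group K] [Group K'] [Finite K] [Finite K'] (f : K →* K')
    (χ : IrrCharacter K') {ψ : K → ℂ} (hψ : IsIrrCharacter K ψ)
    (h : ∀ x, ψ x = (χ : K' → ℂ) (f x)) : detOrder ψ ∣ detOrder (χ : K' → ℂ) := by
  obtain ⟨n, ρ, -, hρ⟩ := χ.2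
  refine orderOf_dvd_of_pow_eq_one (funext fun x => ?_)
  rw [Pi.pow_apply, detChar_eq_of_rep hψ (ρ.comp f)
    (funext fun y => (congrFun hρ (f y)).trans (h y).symm)]
  show LinearMap.det (ρ (f x)) ^ _ = _
  rw [← detChar_eq_of_rep χ.2 ρ hρ]
  exact detChar_pow_detOrder (χ : K' → ℂ) (f x)

/-- The determinant of a Galois conjugate. -/
theorem detChar_powIrr {K : Type*} [Group K] [Fintype K] {k : ℕ} (hk : k.Coprime (Nat.card K))
    (χ : IrrCharacter K) (g : K) :
    detChar (Orth.powIrr hk χ : K → ℂ) g = detChar (χ : K → ℂ) g ^ k := by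
  have hpos : 0 < Nat.card K := Nat.card_pos
  obtain ⟨σ, hσ⟩ := GaloisHom.exists_ringHom_pow hpos hk
  have hval : ∀ x, σ ((χ : K → ℂ) x) = (χ : K → ℂ) (x ^ k) := fun x =>
    FieldOfValues57.map_value (orderOf_dvd_natCard x) σ hσ (CfsgLib.Chars.isCharacter_coe χ)
  rw [show (Orth.powIrr hk χ : K → ℂ) = fun x => σ ((χ : K → ℂ) x) from
    funext fun x => (hval x).symm, Glauberman.detChar_ringHom χ σ g]
  refine hσ _ ?_
  rw [← detHom_apply (CfsgLib.Chars.isCharacter_coe χ), ← Units.val_pow_eq_pow_val, ← map_pow,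
    pow_card_eq_one', map_one, Units.val_one]

theorem detOrder_powIrr_dvd {K : Type*} [Group K] [Fintype K] {k : ℕ} (hk : k.Coprime (Nat.card K))
    (χ : IrrCharacter K) : detOrder (Orth.powIrr hk χ : K → ℂ) ∣ detOrder (χ : K → ℂ) := by
  refine orderOf_dvd_of_pow_eq_one (funext fun g => ?_)
  rw [Pi.pow_apply, detChar_powIrr, ← pow_mul, mul_comm, pow_mul, detChar_pow_detOrder, one_pow]
  rfl

/-! ### Pulling back to an intermediate subgroup -/

variable {G : Type*} [Group G] [Finite G] {p : ℕ} {N J : Subgroup G}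

/-- A character of `N` seen on `N` inside `J`. -/
noncomputable def pullIrr (h : N ≤ J) (θ : IrrCharacter N) : IrrCharacter (N.subgroupOf J) :=
  CfsgLib.Chars.irrEquiv (Subgroup.subgroupOfEquivOfLe h).symm θ

omit [Finite G] in
theorem pullIrr_apply (h : N ≤ J) (θ : IrrCharacter N) (x : N.subgroupOf J) :
    (pullIrr h θ : N.subgroupOf J → ℂ) x = (θ : N → ℂ) ⟨((x : J) : G), x.2⟩ := by
  rw [pullIrr, CfsgLib.Chars.irrEquiv_apply]
  rfl

omit [Finite G] in
theorem charDegree_pullIrr (h : N ≤ J) (θ : IrrCharacter N) :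
    charDegree (pullIrr h θ : N.subgroupOf J → ℂ) = charDegree (θ : N → ℂ) := by
  unfold charDegree
  rw [pullIrr_apply]
  rfl

theorem detOrder_pullIrr_dvd (h : N ≤ J) (θ : IrrCharacter N) :
    detOrder (pullIrr h θ : N.subgroupOf J → ℂ) ∣ detOrder (θ : N → ℂ) :=
  detOrder_comp_dvd (Subgroup.subgroupOfEquivOfLe h).toMonoidHom θ (pullIrr h θ).2
    (pullIrr_apply h θ)

theorem pullIrr_mem_principalBlock {M : Ideal AlgInt} (h : N ≤ J) {θ : IrrCharacter N}
    (hθ : θ ∈ principalBlock M N) : pullIrr h θ ∈ principalBlock M (N.subgroupOf J) := by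
  have h1 : SameBlock M (CfsgLib.Chars.oneChar N : N → ℂ) (θ : N → ℂ) := by
    rw [CfsgLib.Chars.oneChar_coe]; exact hθ
  have h2 := (sameBlock_irrEquiv_iff (M := M) (Subgroup.subgroupOfEquivOfLe h).symm
    (CfsgLib.Chars.oneChar N) θ).2 h1
  show SameBlock M (fun _ => (1 : ℂ)) (pullIrr h θ : N.subgroupOf J → ℂ)
  rwa [show (fun _ : N.subgroupOf J => (1 : ℂ)) =
    (CfsgLib.Chars.irrEquiv (Subgroup.subgroupOfEquivOfLe h).symm
      (CfsgLib.Chars.oneChar N) : N.subgroupOf J → ℂ) from funext fun x => by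
        rw [CfsgLib.Chars.irrEquiv_apply, CfsgLib.Chars.oneChar_coe]]

variable [Fact p.Prime]

/-- A Sylow subgroup of `N` seen on `N` inside `J`. -/
noncomputable def pullSylow (h : N ≤ J) (Q : Sylow p N) : Sylow p (N.subgroupOf J) :=
  Q.comapOfInjective (Subgroup.subgroupOfEquivOfLe h).toMonoidHom
    (Subgroup.subgroupOfEquivOfLe h).injective
    (fun x _ => ⟨(Subgroup.subgroupOfEquivOfLe h).symm x, (Subgroup.subgroupOfEquivOfLe h).apply_symm_apply x⟩)

omit [Finite G] in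
theorem sylG_pullSylow (h : N ≤ J) (Q : Sylow p N) :
    sylG (pullSylow h Q) = (sylG Q).subgroupOf J := by
  ext j
  rw [Subgroup.mem_subgroupOf, Subgroup.mem_map, Subgroup.mem_map]
  constructor
  · rintro ⟨x, hx, rfl⟩
    exact ⟨_, hx, rfl⟩
  · rintro ⟨y, hy, hyj⟩
    refine ⟨⟨j, ?_⟩, ?_, rfl⟩
    · show (j : G) ∈ N
      rw [← hyj]; exact y.2
    · show (⟨(j : G), _⟩ : N) ∈ (Q : Subgroup N)
      rwa [← show y = ⟨(j : G), hyj ▸ y.2⟩ from Subtype.ext hyj]

omit [Finite G] in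
theorem mem_centralizer_pull (h : N ≤ J) (Q : Sylow p N) {c : J} :
    c ∈ Subgroup.centralizer (sylG (pullSylow h Q) : Set J) ↔
      (c : G) ∈ Subgroup.centralizer (sylG Q : Set G) := by
  rw [sylG_pullSylow, Subgroup.mem_centralizer_iff, Subgroup.mem_centralizer_iff]
  constructor
  · intro hc y hy
    exact congrArg Subtype.val (hc ⟨y, h (Subgroup.map_subtype_le _ hy)⟩ (Subgroup.mem_subgroupOf.2 hy))
  · intro hc y hy
    exact Subtype.ext (hc (y : G) (Subgroup.mem_subgroupOf.1 hy))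

omit [Finite G] in
theorem cov_pull [N.Normal] (h : N ≤ J) (Q : Sylow p N)
    (hJ : J ≤ N ⊔ Subgroup.centralizer (sylG Q : Set G)) :
    N.subgroupOf J ⊔ Subgroup.centralizer (sylG (pullSylow h Q) : Set J) = ⊤ := by
  refine eq_top_iff.2 fun j _ => ?_
  obtain ⟨n, hn, c, hc, he⟩ := Subgroup.mem_sup_of_normal_left.1 (hJ j.2)
  have hcJ : c ∈ J := by
    have : c = n⁻¹ * (j : G) := by rw [← he]; group
    rw [this]
    exact J.mul_mem (J.inv_mem (h hn)) j.2
  rw [show j = (⟨n, h hn⟩ : J) * ⟨c, hcJ⟩ from Subtype.ext he.symm]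
  exact Subgroup.mul_mem_sup (Subgroup.mem_subgroupOf.2 hn) ((mem_centralizer_pull h Q).2 hc)

end CfsgLib.Blocks.PRationalExtension
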